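import Cfsg.Agent.DihedralWreath.Model

/-!
Automorphisms of `D₈ ≀ C₂` up to inner ones.
-/

set_option autoImplicit false

namespace CfsgLib.DihedralWreath

/-- `p` squares to one and commutes with all its conjugates. -/
def IsGood {G : Type*} [Group G] (p : G) : Prop :=
  p * p = 1 ∧ ∀ g, p * (g * p * g⁻¹) = g * p * g⁻¹ * p

theorem isGood_iff_aux :
    ∀ p : M, (p * p = 1 ∧ ∀ g, p * (g * p * g⁻¹) = g * p * g⁻¹ * p) ↔ (InVa p ∨ InVb p) := by
  decide +kernel

theorem isGood_iff (p : M) : IsGood p ↔ (InVa p ∨ InVb p) := isGood_iff_aux p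

theorem va_mul : ∀ v u : M, InVa v → InVa u → InVa (v * u⁻¹) := by decide +kernel
theorem vb_mul : ∀ v u : M, InVb v → InVb u → InVb (v * u⁻¹) := by decide +kernel
theorem va_inv : ∀ v : M, InVa v → v⁻¹ = v := by decide +kernel
theorem vb_inv : ∀ v : M, InVb v → v⁻¹ = v := by decide +kernel
theorem va_conj : ∀ g v : M, InVa v → InVa (g * v * g⁻¹) := by decide +kernel
theorem vb_conj : ∀ g v : M, InVb v → InVb (g * v * g⁻¹) := by decide +kernel
theorem inC_conj : ∀ g v : M, InC v → InC (g * v * g⁻¹) := by decide +kernel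
theorem inC_mul : ∀ v u : M, InC v → InC u → InC (v * u⁻¹) := by decide +kernel

theorem vb_right : ∀ a b : M, InVb a → InVb (a * b⁻¹) → InVb b := by decide +kernel
theorem va_right : ∀ a b : M, InVa b → InVa (a * b⁻¹) → InVa a := by decide +kernel

theorem center_mem : ∀ p : M, (∀ g, g * p = p * g) → p = 1 ∨ p = cz := by decide +kernel
theorem cz_comm : ∀ g : M, g * cz = cz * g := by decide +kernel
theorem cz_mul_cz : cz * cz = 1 := by decide +kernel
theorem cz_ne_one : cz ≠ 1 := by decide +kernel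

theorem base_decomp : ∀ p : M, p.e = false → ∃ v, InVa v ∧ InVb (v⁻¹ * p) := by decide +kernel
theorem va_base {v : M} (h : InVa v) : v.e = false := h.1
theorem vb_base {v : M} (h : InVb v) : v.e = false := h.1
theorem e_mul (p q : M) : (p * q).e = xor p.e q.e := rfl
theorem e_one : (1 : M).e = false := rfl

theorem gA_va : InVa gA := by decide +kernel
theorem gB_vb : InVb gB := by decide +kernel
theorem gA_not_vb : ¬ InVb gA := by decide +kernel
theorem gB_not_va : ¬ InVa gB := by decide +kernel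
theorem gA_cent : ∀ g : M, g * gA = gA * g → g.e = false := by decide +kernel
theorem gB_cent : ∀ g : M, g * gB = gB * g → g.e = false := by decide +kernel
theorem gA_not_central : ∃ g : M, g.e = false ∧ g * gA ≠ gA * g := by decide +kernel
theorem gAB_sq : (gA * gB) * (gA * gB) ≠ 1 := by decide +kernel

theorem classify_A : ∀ x : M, InVa x → (∀ g, g * x = x * g → g.e = false) →
    (∃ g, g.e = false ∧ g * x ≠ x * g) → ∃ s g, x = g * tw gA s * g⁻¹ := by
  decide +kernel

theorem classify_B : ∀ (s : Bool) (y : M), InVb y → (∀ g, g * y = y * g → g.e = false) →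
    (tw gA s * y) * (tw gA s * y) ≠ 1 →
    ∃ t g, g * tw gA s = tw gA s * g ∧ y = g * tw gB t * g⁻¹ := by
  decide +kernel

theorem classify_W : ∀ (s t : Bool) (x : M), x.e = true → x * x = 1 →
    ∃ g, g * tw gA s = tw gA s * g ∧ g * tw gB t = tw gB t * g ∧ x = g * gW * g⁻¹ := by
  decide +kernel

section Injective

variable {φ : M →* M} (hφ : Function.Injective φ)
include hφ

theorem map_surjective : Function.Surjective φ := Finite.surjective_of_injective hφ

theorem map_good {v : M} (h : InVa v ∨ InVb v) : InVa (φ v) ∨ InVb (φ v) := by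
  rw [← isGood_iff] at h ⊢
  refine ⟨by rw [← map_mul, h.1, map_one], fun g => ?_⟩
  obtain ⟨g, rfl⟩ := map_surjective hφ g
  rw [← map_inv φ g, ← map_mul, ← map_mul, ← map_mul, ← map_mul, h.2]

theorem map_va_cases : (∀ v, InVa v → InVa (φ v)) ∨ (∀ v, InVa v → InVb (φ v)) := by
  by_contra hc
  push Not at hc
  obtain ⟨⟨v, hv, hv'⟩, u, hu, hu'⟩ := hc
  have h1 : InVb (φ v) := (map_good hφ (.inl hv)).resolve_left hv'
  have h2 : InVa (φ u) := (map_good hφ (.inl hu)).resolve_right hu'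
  have h3 := map_good hφ (.inl (va_mul v u hv hu))
  rw [map_mul, map_inv] at h3
  rcases h3 with h3 | h3
  · exact hv' (va_right _ _ h2 h3)
  · exact hu' (vb_right _ _ h1 h3)

theorem map_vb_cases : (∀ v, InVb v → InVa (φ v)) ∨ (∀ v, InVb v → InVb (φ v)) := by
  by_contra hc
  push Not at hc
  obtain ⟨⟨v, hv, hv'⟩, u, hu, hu'⟩ := hc
  have h1 : InVb (φ v) := (map_good hφ (.inr hv)).resolve_left hv'
  have h2 : InVa (φ u) := (map_good hφ (.inr hu)).resolve_right hu'
  have h3 := map_good hφ (.inr (vb_mul v u hv hu))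
  rw [map_mul, map_inv] at h3
  rcases h3 with h3 | h3
  · exact hv' (va_right _ _ h2 h3)
  · exact hu' (vb_right _ _ h1 h3)

/-- An automorphism fixes or exchanges the two normal four-dimensional subspaces. -/
theorem map_fix_or_swap :
    ((∀ v, InVa v → InVa (φ v)) ∧ ∀ v, InVb v → InVb (φ v)) ∨
      ((∀ v, InVa v → InVb (φ v)) ∧ ∀ v, InVb v → InVa (φ v)) := by
  have hsurj : ∀ w, InVa w ∨ InVb w → ∃ v, (InVa v ∨ InVb v) ∧ φ v = w := by
    intro w hw
    rw [← isGood_iff] at hw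
    obtain ⟨v, rfl⟩ := map_surjective hφ w
    refine ⟨v, (isGood_iff v).mp ⟨hφ (by rw [map_mul, hw.1, map_one]), fun g => hφ ?_⟩, rfl⟩
    simp only [map_mul, map_inv]
    exact hw.2 _
  rcases map_va_cases hφ with ha | ha <;> rcases map_vb_cases hφ with hb | hb
  · exfalso
    obtain ⟨v, hv, hv'⟩ := hsurj gB (.inr gB_vb)
    rcases hv with hv | hv
    · exact gB_not_va (hv' ▸ ha v hv)
    · exact gB_not_va (hv' ▸ hb v hv)
  · exact .inl ⟨ha, hb⟩
  · exact .inr ⟨ha, hb⟩
  · exfalso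
    obtain ⟨v, hv, hv'⟩ := hsurj gA (.inl gA_va)
    rcases hv with hv | hv
    · exact gA_not_vb (hv' ▸ ha v hv)
    · exact gA_not_vb (hv' ▸ hb v hv)

theorem map_base {p : M} (hp : p.e = false) : (φ p).e = false := by
  obtain ⟨v, hv, hu⟩ := base_decomp p hp
  have h1 : p = v * (v⁻¹ * p) := (mul_inv_cancel_left v p).symm
  rw [h1, map_mul, e_mul]
  have h2 : (φ v).e = false := by
    rcases map_good hφ (.inl hv) with h | h <;> exact h.1
  have h3 : (φ (v⁻¹ * p)).e = false := by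
    rcases map_good hφ (.inr hu) with h | h <;> exact h.1
  rw [h2, h3]; rfl

theorem map_gW : (φ gW).e = true := by
  by_contra h
  rw [Bool.not_eq_true] at h
  obtain ⟨p, hp⟩ := map_surjective hφ gW
  have h1 : ∀ p, (φ p).e = false := by
    intro p
    cases he : p.e
    · exact map_base hφ he
    · have h2 : p = p * gW * gW := by
        rw [mul_assoc, rels_gen.hW, mul_one]
      rw [h2, map_mul, e_mul, h, map_base hφ (by rw [e_mul, he]; rfl)]
      rfl
  have h2 := h1 p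
  rw [hp] at h2
  exact Bool.noConfusion h2

theorem map_gA_cent {g : M} (hg : g * φ gA = φ gA * g) : g.e = false := by
  obtain ⟨g, rfl⟩ := map_surjective hφ g
  rw [← map_mul, ← map_mul] at hg
  exact map_base hφ (gA_cent g (hφ hg))

theorem map_gB_cent {g : M} (hg : g * φ gB = φ gB * g) : g.e = false := by
  obtain ⟨g, rfl⟩ := map_surjective hφ g
  rw [← map_mul, ← map_mul] at hg
  exact map_base hφ (gB_cent g (hφ hg))

/-- An automorphism fixing both subspaces is inner times a twist. -/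
theorem classify (ha : ∀ v, InVa v → InVa (φ v)) (hb : ∀ v, InVb v → InVb (φ v)) :
    ∃ g s t, φ gA = g * tw gA s * g⁻¹ ∧ φ gB = g * tw gB t * g⁻¹ ∧
      φ gW = g * gW * g⁻¹ := by
  obtain ⟨g0, hg0, hg0'⟩ := gA_not_central
  have hnc : ∃ g, g.e = false ∧ g * φ gA ≠ φ gA * g := by
    refine ⟨φ g0, map_base hφ hg0, fun h => hg0' (hφ ?_)⟩
    rw [map_mul, map_mul, h]
  obtain ⟨s, g1, h1⟩ := classify_A (φ gA) (ha _ gA_va) (fun g hg => map_gA_cent hφ hg) hnc
  have hA : g1⁻¹ * φ gA * g1 = tw gA s := by rw [h1]; group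
  have hy : InVb (g1⁻¹ * φ gB * g1) := by
    have := vb_conj g1⁻¹ _ (hb _ gB_vb)
    rwa [inv_inv] at this
  have hyc : ∀ g, g * (g1⁻¹ * φ gB * g1) = g1⁻¹ * φ gB * g1 * g → g.e = false := by
    intro g hg
    have h2 : g1 * g * g1⁻¹ * φ gB = φ gB * (g1 * g * g1⁻¹) := by
      calc g1 * g * g1⁻¹ * φ gB = g1 * (g * (g1⁻¹ * φ gB * g1)) * g1⁻¹ := by group
        _ = g1 * (g1⁻¹ * φ gB * g1 * g) * g1⁻¹ := by rw [hg]
        _ = _ := by group
    have h3 := map_gB_cent hφ h2
    rw [e_mul, e_mul] at h3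
    have h4 : (g1⁻¹).e = g1.e := by
      cases h : g1.e <;> simp [inv_eq, h]
    rw [h4] at h3
    revert h3
    cases g1.e <;> cases g.e <;> simp
  have hys : (tw gA s * (g1⁻¹ * φ gB * g1)) * (tw gA s * (g1⁻¹ * φ gB * g1)) ≠ 1 := by
    intro h
    apply gAB_sq
    apply hφ
    rw [← hA] at h
    calc φ (gA * gB * (gA * gB))
        = g1 * (g1⁻¹ * φ gA * g1 * (g1⁻¹ * φ gB * g1) *
            (g1⁻¹ * φ gA * g1 * (g1⁻¹ * φ gB * g1))) * g1⁻¹ := by simp only [map_mul]; group
      _ = φ 1 := by rw [h, map_one]; group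
  obtain ⟨t, g2, hg2, h2⟩ := classify_B s _ hy hyc hys
  have hxW : ((g1 * g2)⁻¹ * φ gW * (g1 * g2)).e = true := by
    have h4 : ∀ a : M, (a⁻¹).e = a.e := by
      intro a; cases h : a.e <;> simp [inv_eq, h]
    rw [e_mul, e_mul, h4, map_gW hφ]
    cases (g1 * g2).e <;> rfl
  have hxW2 : ((g1 * g2)⁻¹ * φ gW * (g1 * g2)) * ((g1 * g2)⁻¹ * φ gW * (g1 * g2)) = 1 := by
    calc _ = (g1 * g2)⁻¹ * φ (gW * gW) * (g1 * g2) := by rw [map_mul]; group
      _ = 1 := by rw [rels_gen.hW, map_one]; group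
  obtain ⟨g3, h3a, h3b, h3⟩ := classify_W s t _ hxW hxW2
  refine ⟨g1 * g2 * g3, s, t, ?_, ?_, ?_⟩
  · calc φ gA = g1 * tw gA s * g1⁻¹ := h1
      _ = g1 * (g2 * tw gA s) * g2⁻¹ * g1⁻¹ := by rw [hg2]; group
      _ = g1 * g2 * (g3 * tw gA s) * g3⁻¹ * g2⁻¹ * g1⁻¹ := by rw [h3a]; group
      _ = _ := by group
  · calc φ gB = g1 * (g1⁻¹ * φ gB * g1) * g1⁻¹ := by group
      _ = g1 * g2 * tw gB t * g2⁻¹ * g1⁻¹ := by rw [h2]; group
      _ = g1 * g2 * (g3 * tw gB t) * g3⁻¹ * g2⁻¹ * g1⁻¹ := by rw [h3b]; group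
      _ = _ := by group
  · calc φ gW = (g1 * g2) * ((g1 * g2)⁻¹ * φ gW * (g1 * g2)) * (g1 * g2)⁻¹ := by group
      _ = _ := by rw [h3]; group

end Injective

end CfsgLib.DihedralWreath
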