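import Cfsg.Agent.DihedralWreath.Aut

/-!
The twisting and exchanging automorphisms of `D₈ ≀ C₂`, and the computations in the extension
of the model by an exchanging automorphism.
-/

set_option autoImplicit false

namespace CfsgLib.DihedralWreath

theorem rels_tw (s t : Bool) : Rels (tw gA s) (tw gB t) gW := by
  cases s <;> cases t <;> constructor <;> (first | decide +kernel | (show _ = _; decide +kernel))

theorem rels_swap (s t : Bool) : Rels (tw gB t) (tw gA s) gW := by
  cases s <;> cases t <;> constructor <;> (first | decide +kernel | (show _ = _; decide +kernel))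

/-- twisting automorphism -/
def eps (s t : Bool) : M →* M := (rels_tw s t).hom

/-- exchanging automorphism -/
def psi (s t : Bool) : M →* M := (rels_swap s t).hom

theorem eps_fixed : ∀ s t (c : M), c * gA * c⁻¹ = eps s t (eps s t gA) →
    c * gB * c⁻¹ = eps s t (eps s t gB) → c * gW * c⁻¹ = eps s t (eps s t gW) →
    c = 1 ∨ c = cz := by
  unfold eps; decide +kernel

theorem eps_e : ∀ s t (p : M), (eps s t p).e = p.e := by unfold eps; decide +kernel

theorem eps_inC : ∀ s t (p : M), InC p → InC (eps s t p) := by unfold eps; decide +kernel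

theorem base_sq_inC : ∀ p : M, p.e = false → InC (p * p) := by decide +kernel

theorem eps_prod_inC : ∀ s t (p : M), p.e = false →
    InC (p * eps s t p) ∧ InC (p * eps s t p * cz) := by
  unfold eps; decide +kernel

theorem psi_fixed : ∀ s t (c : M), c * gA * c⁻¹ = psi s t (psi s t gA) →
    c * gB * c⁻¹ = psi s t (psi s t gB) → c * gW * c⁻¹ = psi s t (psi s t gW) →
    s = t ∧ (c = 1 ∨ c = cz) := by
  unfold psi; decide +kernel

theorem psi_va : ∀ v : M, InVa v → InVb (psi false false v) := by unfold psi; decide +kernel
theorem psi_vb : ∀ v : M, InVb v → InVa (psi false false v) := by unfold psi; decide +kernel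
theorem psi_gA (s t : Bool) : psi s t gA = tw gB t := (rels_swap s t).hom_gA
theorem psi_gB (s t : Bool) : psi s t gB = tw gA s := (rels_swap s t).hom_gB
theorem psi_gW (s t : Bool) : psi s t gW = gW := (rels_swap s t).hom_gW
theorem psi_cz : ∀ s t : Bool, psi s t cz = cz := by unfold psi; decide +kernel

/-- Multiplication of words `m yⁱ` when `y` induces `psi s s` and `y ^ 2` is central. -/
def mulT (s : Bool) (p q : M × Bool) : M × Bool :=
  (p.1 * (bif p.2 then psi s s q.1 else q.1), xor p.2 q.2)

/-- equality up to the centre -/
def EqZ (p q : M × Bool) : Prop := p.2 = q.2 ∧ (p.1 = q.1 ∨ p.1 = q.1 * cz)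

instance : DecidableRel EqZ := fun p q => inferInstanceAs (Decidable (_ ∧ _))

/-- product of a list of words -/
def prodT (s : Bool) : List (M × Bool) → M × Bool
  | [] => (1, false)
  | p :: l => mulT s p (prodT s l)

/-- the three generators of the new copy -/
def genA : M × Bool := (gA * gW * gA * gB * gA, true)
def genB : M × Bool := (gA * gB * gA * gB * gW, false)
def genW : M × Bool := (gW * gA * gW, false)

theorem twisted_rels : ∀ s : Bool,
    EqZ (prodT s [genA, genA]) (prodT s []) ∧
    EqZ (prodT s [genB, genB]) (prodT s []) ∧
    EqZ (prodT s [genW, genW]) (prodT s []) ∧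
    EqZ (prodT s [genA, genB, genA, genB, genA, genB, genA, genB]) (prodT s []) ∧
    EqZ (prodT s [genA, genW, genA, genW]) (prodT s [genW, genA, genW, genA]) ∧
    EqZ (prodT s [genA, genW, genB, genW]) (prodT s [genW, genB, genW, genA]) ∧
    EqZ (prodT s [genB, genW, genB, genW]) (prodT s [genW, genB, genW, genB]) := by
  decide +kernel

theorem twisted_gen_false :
    EqZ (prodT false [genB, genW, genB]) (gA, false) ∧
    EqZ (prodT false [genB, genA, genB, genW, genB, genA, genB]) (gB, false) ∧
    EqZ (prodT false [genA, genB, genA, genW, genA, genB, genA, genB, genW]) (gW, false) ∧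
    EqZ (prodT false [genB, genW, genB, genA, genB, genW]) (1, true) := by
  decide +kernel

theorem twisted_gen_true :
    EqZ (prodT true [genB, genW, genB]) (gA, false) ∧
    EqZ (prodT true [genA, genW, genA]) (gB, false) ∧
    EqZ (prodT true [genA, genB, genA, genW, genA, genB, genA, genB, genW]) (gW, false) ∧
    EqZ (prodT true [genA, genB, genA, genW, genA, genW]) (1, true) := by
  decide +kernel

end CfsgLib.DihedralWreath
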