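import Cfsg.Prelude.Def_CaseTheorems
import Cfsg.Agent.Eq.Def_CaseTheorems
import Cfsg.Agent.DihedralWreath.Twist
import Mathlib.GroupTheory.Nilpotent

/-!
2-groups of sectional rank at most four containing `D₈ ≀ C₂`.
-/

set_option autoImplicit false

namespace CfsgLib.DihedralWreath

section

variable {S : Type*} [Group S] [Finite S] (ι : M →* S) (hι : Function.Injective ι)

/-- conjugation by `y` carries the image of the model into itself -/
def Normalizes (y : S) : Prop := ∀ m, y * ι m * y⁻¹ ∈ ι.range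

theorem normalizes_iff (y : S) :
    y ∈ Subgroup.normalizer ((ι.range : Subgroup S) : Set S) ↔ Normalizes ι y := by
  rw [Subgroup.mem_normalizer_iff_map_conj_eq]
  constructor
  · intro h m
    rw [← h]
    exact ⟨ι m, ⟨m, rfl⟩, rfl⟩
  · intro h
    refine Subgroup.eq_of_le_of_card_ge ?_ ?_
    · rintro _ ⟨_, ⟨m, rfl⟩, rfl⟩
      exact h m
    · exact (Subgroup.card_map_of_injective (MulAut.conj y).injective).ge

theorem normalizes_mul {y z : S} (hy : Normalizes ι y) (hz : Normalizes ι z) :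
    Normalizes ι (y * z) := by
  rw [← normalizes_iff] at *
  exact mul_mem hy hz

theorem normalizes_range {y : S} (hy : y ∈ ι.range) : Normalizes ι y := fun m =>
  mul_mem (mul_mem hy ⟨m, rfl⟩) (inv_mem hy)

include hι

theorem exists_aut {y : S} (hy : Normalizes ι y) :
    ∃ φ : M →* M, Function.Injective φ ∧ ∀ m, ι (φ m) = y * ι m * y⁻¹ := by
  choose f hf using hy
  refine ⟨MonoidHom.mk' f fun a b => hι ?_, ?_, hf⟩
  · rw [map_mul, hf, hf, hf, map_mul]; group
  · intro a b hab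
    have h := congrArg ι (show f a = f b from hab)
    rw [hf, hf] at h
    exact hι (mul_left_cancel (mul_right_cancel h))

omit hι in
theorem act_of_gen {y : S} {f : M →* M} (hA : y * ι gA * y⁻¹ = ι (f gA))
    (hB : y * ι gB * y⁻¹ = ι (f gB)) (hW : y * ι gW * y⁻¹ = ι (f gW)) (m : M) :
    y * ι m * y⁻¹ = ι (f m) := by
  have h : (MulAut.conj y).toMonoidHom.comp ι = ι.comp f := hom_ext hA hB hW
  exact DFunLike.congr_fun h m

omit hι in
theorem exists_root (hS : IsPGroup 2 S) (K : Subgroup S) {y : S} (hyK : y ∈ K)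
    (hy : y ∉ ι.range) : ∃ z ∈ K, z ∉ ι.range ∧ z * z ∈ ι.range := by
  by_contra hc
  push Not at hc
  have h1 : ∀ n : ℕ, y ^ (2 ^ n) ∉ ι.range := by
    intro n
    induction n with
    | zero => simpa using hy
    | succ n ih =>
      rw [pow_succ, mul_comm, two_mul, pow_add]
      exact hc _ (pow_mem hyK _) ih
  obtain ⟨n, hn⟩ := hS y
  exact h1 n (hn ▸ one_mem _)

/-- the subgroup `{ι p yⁱ | p in the base}` cannot exist -/
theorem no_twist (hr : Cfsg.SectionalPRankLE 2 4 S) (s t : Bool) {y : S} (hy : y ∉ ι.range)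
    (hy2 : y * y ∈ ι.range) (hA : y * ι gA * y⁻¹ = ι (tw gA s))
    (hB : y * ι gB * y⁻¹ = ι (tw gB t)) (hW : y * ι gW * y⁻¹ = ι gW) : False := by
  have he : ∀ m, y * ι m * y⁻¹ = ι (eps s t m) :=
    act_of_gen ι (by rw [eps, Rels.hom_gA]; exact hA) (by rw [eps, Rels.hom_gB]; exact hB)
      (by rw [eps, Rels.hom_gW]; exact hW)
  obtain ⟨c, hc⟩ := hy2
  have hcc : ∀ m, c * m * c⁻¹ = eps s t (eps s t m) := by
    intro m
    apply hι
    rw [← he, ← he, map_mul, map_mul, map_inv, hc]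
    group
  have hc1 : c = 1 ∨ c = cz := eps_fixed s t c (hcc _) (hcc _) (hcc _)
  have hcC : InC c := by rcases hc1 with rfl | rfl <;> decide
  have hce : c.e = false := hcC.1
  have hmv : ∀ q, y * ι q = ι (eps s t q) * y := by
    intro q; rw [← he q]; group
  let H : Subgroup S :=
    { carrier := {x | ∃ p : M, p.e = false ∧ (x = ι p ∨ x = ι p * y)}
      one_mem' := ⟨1, rfl, .inl (map_one ι).symm⟩
      mul_mem' := by
        rintro a b ⟨p, hp, ha⟩ ⟨q, hq, hb⟩
        rcases ha with rfl | rfl <;> rcases hb with rfl | rfl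
        · exact ⟨p * q, by rw [e_mul, hp, hq]; rfl, .inl (map_mul ι p q).symm⟩
        · exact ⟨p * q, by rw [e_mul, hp, hq]; rfl, .inr (by rw [map_mul, mul_assoc])⟩
        · exact ⟨p * eps s t q, by rw [e_mul, hp, eps_e, hq]; rfl,
            .inr (by rw [map_mul, mul_assoc, hmv, mul_assoc])⟩
        · refine ⟨p * eps s t q * c, by rw [e_mul, e_mul, hp, eps_e, hq, hce]; rfl, .inl ?_⟩
          rw [map_mul, map_mul, hc]
          calc ι p * y * (ι q * y) = ι p * (y * ι q) * y := by group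
            _ = _ := by rw [hmv]; group
      inv_mem' := by
        have hi : ∀ a : M, (a⁻¹).e = a.e := by
          intro a; cases h : a.e <;> simp [inv_eq, h]
        rintro a ⟨p, hp, rfl | rfl⟩
        · exact ⟨p⁻¹, by rw [hi, hp], .inl (map_inv ι p).symm⟩
        · refine ⟨c⁻¹ * eps s t p⁻¹, by rw [e_mul, eps_e, hi, hi, hp, hce]; rfl, .inr ?_⟩
          rw [map_mul, map_inv, hc, mul_assoc, ← hmv, map_inv]
          group }
  let C : Subgroup M :=
    { carrier := {p | InC p}
      one_mem' := by show InC 1; decide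
      mul_mem' := fun {a b} ha hb => by
        have h1 : InC b⁻¹ := by simpa using inC_mul 1 b (by decide) hb
        simpa using inC_mul a b⁻¹ ha h1
      inv_mem' := fun {a} ha => by
        show InC a⁻¹
        simpa using inC_mul 1 a (by decide) ha }
  have hCH : ∀ p ∈ C, ι p ∈ H := fun p hp => ⟨p, hp.1, .inl rfl⟩
  let N : Subgroup H := (C.map ι).subgroupOf H
  haveI : N.Normal := ⟨by
    rintro ⟨n, _⟩ hn ⟨h, p, hp, hh⟩
    rw [Subgroup.mem_subgroupOf] at hn ⊢
    obtain ⟨q, hq, rfl⟩ := hn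
    rcases hh with rfl | rfl
    · exact ⟨p * q * p⁻¹, inC_conj p q hq, by simp⟩
    · refine ⟨p * eps s t q * p⁻¹, inC_conj p _ (eps_inC s t q hq), ?_⟩
      show ι (p * eps s t q * p⁻¹) = ι p * y * ι q * (ι p * y)⁻¹
      rw [map_mul, map_mul, map_inv, ← he]
      group⟩
  have hsq : ∀ h : H, h * h ∈ N := by
    rintro ⟨h, p, hp, hh⟩
    rw [Subgroup.mem_subgroupOf]
    rcases hh with rfl | rfl
    · exact ⟨p * p, base_sq_inC p hp, by simp⟩
    · refine ⟨p * eps s t p * c, ?_, ?_⟩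
      · rcases hc1 with rfl | rfl
        · rw [mul_one]; exact (eps_prod_inC s t p hp).1
        · exact (eps_prod_inC s t p hp).2
      · show ι (p * eps s t p * c) = ι p * y * (ι p * y)
        rw [map_mul, map_mul, hc, ← mul_assoc (ι p * y) (ι p) y, mul_assoc (ι p) y (ι p), hmv]
        group
  have hexp : ∀ a : H ⧸ N, a * a = 1 := by
    intro a
    induction a using QuotientGroup.induction_on with
    | _ h => exact (QuotientGroup.eq_one_iff _).mpr (hsq h)
  have hcardH : Nat.card H = 128 := by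
    let f : {p : M // p.e = false} × Bool → H := fun x =>
      ⟨ι x.1 * (bif x.2 then y else 1), x.1, x.1.2, by cases x.2 <;> simp⟩
    have hf : Function.Bijective f := by
      constructor
      · rintro ⟨⟨p, hp⟩, i⟩ ⟨⟨q, hq⟩, j⟩ hpq
        have h := congrArg Subtype.val hpq
        cases i <;> cases j <;> simp only [f, cond_true, cond_false, mul_one] at h
        · cases hι h; rfl
        · exact absurd ⟨q⁻¹ * p, by rw [map_mul, map_inv, h, inv_mul_cancel_left]⟩ hy
        · exact absurd ⟨p⁻¹ * q, by rw [map_mul, map_inv, ← h, inv_mul_cancel_left]⟩ hy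
        · cases hι (mul_right_cancel h); rfl
      · rintro ⟨x, p, hp, rfl | rfl⟩
        · exact ⟨(⟨p, hp⟩, false), Subtype.ext (mul_one _)⟩
        · exact ⟨(⟨p, hp⟩, true), rfl⟩
    rw [← Nat.card_eq_of_bijective f hf, Nat.card_prod, Nat.card_eq_fintype_card,
      Nat.card_eq_fintype_card, Fintype.card_bool,
      show Fintype.card {p : M // p.e = false} = 64 from by decide +kernel]
  have hcardN : Nat.card N = 4 := by
    have hle : C.map ι ≤ H := by
      rintro _ ⟨p, hp, rfl⟩; exact hCH p hp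
    rw [Nat.card_congr (Subgroup.subgroupOfEquivOfLe hle).toEquiv,
      Subgroup.card_map_of_injective hι]
    show Nat.card {p : M // InC p} = 4
    rw [Nat.card_eq_fintype_card]
    decide +kernel
  have h32 : Nat.card (H ⧸ N) = 32 := by
    have h := Subgroup.card_eq_card_quotient_mul_card_subgroup N
    rw [hcardH, hcardN] at h
    omega
  have hcomm : IsMulCommutative (⊤ : Subgroup (H ⧸ N)) := ⟨⟨fun a b => by
    apply Subtype.ext
    show a.1 * b.1 = b.1 * a.1
    have h1 := inv_eq_of_mul_eq_one_right (hexp (a.1 * b.1))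
    rw [mul_inv_rev, inv_eq_of_mul_eq_one_right (hexp a.1),
      inv_eq_of_mul_eq_one_right (hexp b.1)] at h1
    exact h1.symm⟩⟩
  have hle := hr H N ⊤ hcomm fun a _ => by rw [pow_two]; exact hexp a
  rw [Subgroup.card_top, h32] at hle
  norm_num at hle

/-- elements centralising the model lie in it -/
theorem centralizer_le (hS : IsPGroup 2 S) (hr : Cfsg.SectionalPRankLE 2 4 S) {y : S}
    (hy : ∀ m, y * ι m = ι m * y) : y ∈ ι.range := by
  by_contra hn
  obtain ⟨z, hz, hzn, hz2⟩ := exists_root ι hS (Subgroup.centralizer (Set.range ι)) (y := y)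
    (by rintro _ ⟨m, rfl⟩; exact (hy m).symm) hn
  have h : ∀ m, z * ι m * z⁻¹ = ι m := fun m => by
    rw [← hz (ι m) ⟨m, rfl⟩, mul_inv_cancel_right]
  exact no_twist ι hι hr false false hzn hz2 (h _) (h _) (h _)

/-- normalising elements that map `Va` into itself lie in the model -/
theorem fix_va_mem (hS : IsPGroup 2 S) (hr : Cfsg.SectionalPRankLE 2 4 S) {y : S}
    (hy : Normalizes ι y) (hva : ∀ v, InVa v → ∃ u, InVa u ∧ ι u = y * ι v * y⁻¹) :
    y ∈ ι.range := by
  by_contra hn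
  let K : Subgroup S :=
    Subgroup.normalizer ((ι.range : Subgroup S) : Set S) ⊓
      Subgroup.normalizer (ι '' {v | InVa v})
  have hfin : ∀ {x : S}, (∀ v, InVa v → ∃ u, InVa u ∧ ι u = x * ι v * x⁻¹) →
      x ∈ Subgroup.normalizer (ι '' {v | InVa v}) := by
    intro x hx
    rw [Subgroup.mem_normalizer_iff_conj_image_eq]
    refine Set.eq_of_subset_of_ncard_le ?_ ?_
    · rintro _ ⟨_, ⟨v, hv, rfl⟩, rfl⟩
      obtain ⟨u, hu, he⟩ := hx v hv
      exact ⟨u, hu, he⟩
    · rw [Set.ncard_image_of_injective _ (MulAut.conj x).injective]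
  obtain ⟨z, hz, hzn, hz2⟩ := exists_root ι hS K (y := y)
    ⟨(normalizes_iff ι y).mpr hy, hfin hva⟩ hn
  obtain ⟨hz1, hzv⟩ := hz
  replace hzv := Subgroup.mem_normalizer_iff_conj_image_eq.mp hzv
  obtain ⟨φ, hφi, hφ⟩ := exists_aut ι hι ((normalizes_iff ι z).mp hz1)
  have ha : ∀ v, InVa v → InVa (φ v) := by
    intro v hv
    have h : MulAut.conj z (ι v) ∈ ι '' {v | InVa v} := hzv ▸ ⟨ι v, ⟨v, hv, rfl⟩, rfl⟩
    obtain ⟨u, hu, he⟩ := h
    rw [MulAut.conj_apply, ← hφ] at he
    exact hι he ▸ hu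
  have hb : ∀ v, InVb v → InVb (φ v) := by
    rcases map_fix_or_swap hφi with h | h
    · exact h.2
    · intro v hv
      exfalso
      obtain ⟨w, hw⟩ := map_surjective hφi gB
      have hg : IsGood (φ w) := (isGood_iff _).mpr (.inr (hw ▸ gB_vb))
      have hgw : IsGood w := ⟨hφi (by rw [map_mul, hg.1, map_one]),
        fun g => hφi (by simp only [map_mul, map_inv]; exact hg.2 _)⟩
      rcases (isGood_iff w).mp hgw with hw' | hw'
      · exact gB_not_va (hw ▸ ha w hw')
      · exact gB_not_va (hw ▸ h.2 w hw')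
  obtain ⟨g, s, t, h1, h2, h3⟩ := classify hφi ha hb
  refine no_twist ι hι hr s t (y := (ι g)⁻¹ * z) ?_ ?_ ?_ ?_ ?_
  · exact fun h => hzn (by simpa using mul_mem (⟨g, rfl⟩ : ι g ∈ ι.range) h)
  · have h4 : (ι g)⁻¹ * z * ((ι g)⁻¹ * z) = (ι g)⁻¹ * (z * (ι g⁻¹) * z⁻¹) * (z * z) := by
      rw [map_inv]; group
    rw [h4, ← hφ]
    exact mul_mem (mul_mem (inv_mem ⟨g, rfl⟩) ⟨_, rfl⟩) hz2
  all_goals
    rw [mul_inv_rev, inv_inv]
  · calc (ι g)⁻¹ * z * ι gA * (z⁻¹ * ι g) = (ι g)⁻¹ * (z * ι gA * z⁻¹) * ι g := by group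
      _ = _ := by rw [← hφ, h1, map_mul, map_mul, map_inv]; group
  · calc (ι g)⁻¹ * z * ι gB * (z⁻¹ * ι g) = (ι g)⁻¹ * (z * ι gB * z⁻¹) * ι g := by group
      _ = _ := by rw [← hφ, h2, map_mul, map_mul, map_inv]; group
  · calc (ι g)⁻¹ * z * ι gW * (z⁻¹ * ι g) = (ι g)⁻¹ * (z * ι gW * z⁻¹) * ι g := by group
      _ = _ := by rw [← hφ, h3, map_mul, map_mul, map_inv]; group

end

end CfsgLib.DihedralWreath
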