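import Mathlib.GroupTheory.SpecificGroups.Dihedral
import Mathlib.GroupTheory.Perm.Fin
import Mathlib.GroupTheory.Sylow
import Mathlib.Algebra.Group.MinimalAxioms

/-!
A concrete model of `D₈ ≀ C₂` (order 128) with its universal property.
-/

set_option autoImplicit false

namespace CfsgLib.DihedralWreath

/-- The model of the wreath product of a dihedral group of order 8 by a group of order 2. -/
structure M where
  x : DihedralGroup 4
  y : DihedralGroup 4
  e : Bool
deriving DecidableEq

instance : Fintype M :=
  Fintype.ofEquiv (DihedralGroup 4 × DihedralGroup 4 × Bool)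
    ⟨fun p => ⟨p.1, p.2.1, p.2.2⟩, fun p => (p.x, p.y, p.e), fun _ => rfl, fun _ => rfl⟩

instance : Mul M :=
  ⟨fun p q => ⟨p.x * (bif p.e then q.y else q.x), p.y * (bif p.e then q.x else q.y), xor p.e q.e⟩⟩

instance : One M := ⟨⟨1, 1, false⟩⟩

instance : Inv M := ⟨fun p => bif p.e then ⟨p.y⁻¹, p.x⁻¹, true⟩ else ⟨p.x⁻¹, p.y⁻¹, false⟩⟩

theorem mul_eq (p q : M) : p * q =
    ⟨p.x * (bif p.e then q.y else q.x), p.y * (bif p.e then q.x else q.y), xor p.e q.e⟩ := rfl

theorem one_eq : (1 : M) = ⟨1, 1, false⟩ := rfl

theorem inv_eq (p : M) :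
    p⁻¹ = bif p.e then ⟨p.y⁻¹, p.x⁻¹, true⟩ else ⟨p.x⁻¹, p.y⁻¹, false⟩ := rfl

instance : Group M :=
  Group.ofLeftAxioms
    (fun p q r => by
      obtain ⟨a, b, s⟩ := p; obtain ⟨c, d, t⟩ := q; obtain ⟨g, h, u⟩ := r
      cases s <;> cases t <;> cases u <;> simp [mul_eq, mul_assoc])
    (fun p => by obtain ⟨a, b, s⟩ := p; cases s <;> simp [mul_eq, one_eq])
    (fun p => by obtain ⟨a, b, s⟩ := p; cases s <;> simp [mul_eq, one_eq, inv_eq])

theorem natCard_M : Nat.card M = 128 := by
  rw [Nat.card_eq_fintype_card]
  decide +kernel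

/-- generators -/
def gA : M := ⟨.sr 0, 1, false⟩
def gB : M := ⟨.sr 1, 1, false⟩
def gW : M := ⟨1, 1, true⟩

/-- the central involutions of the two factors, and their product -/
def c1 : M := ⟨.r 2, 1, false⟩
def c2 : M := ⟨1, .r 2, false⟩
def cz : M := ⟨.r 2, .r 2, false⟩

/-- twisting by the central involution of the second factor -/
def tw (u : M) : Bool → M := fun s => bif s then u * c2 else u

def inA (d : DihedralGroup 4) : Bool :=
  decide (d = 1 ∨ d = .r 2 ∨ d = .sr 0 ∨ d = .sr 2)

def inB (d : DihedralGroup 4) : Bool :=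
  decide (d = 1 ∨ d = .r 2 ∨ d = .sr 1 ∨ d = .sr 3)

def InVa (p : M) : Prop := p.e = false ∧ inA p.x = true ∧ inA p.y = true
def InVb (p : M) : Prop := p.e = false ∧ inB p.x = true ∧ inB p.y = true
def InC (p : M) : Prop := p.e = false ∧ (p.x = 1 ∨ p.x = .r 2) ∧ (p.y = 1 ∨ p.y = .r 2)

instance : DecidablePred InVa := fun p => inferInstanceAs (Decidable (_ ∧ _))
instance : DecidablePred InVb := fun p => inferInstanceAs (Decidable (_ ∧ _))
instance : DecidablePred InC := fun p => inferInstanceAs (Decidable (_ ∧ _))

section Lift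

variable {Q : Type*} [Group Q]

/-- The relations of `D₈ ≀ C₂` -/
structure Rels (A B W : Q) : Prop where
  hA : A * A = 1
  hB : B * B = 1
  hW : W * W = 1
  hAB : (A * B) ^ 4 = 1
  hAA : Commute A (W * A * W)
  hABw : Commute A (W * B * W)
  hBB : Commute B (W * B * W)

variable {A B W : Q}

/-- the map out of the dihedral group determined by two involutions -/
def dih (A B : Q) : DihedralGroup 4 → Q
  | .r i => (A * B) ^ i.val
  | .sr i => A * (A * B) ^ i.val

theorem pow_add_val {R : Q} (hR : R ^ 4 = 1) (i j : ZMod 4) :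
    R ^ (i + j).val = R ^ i.val * R ^ j.val := by
  rw [← pow_add, ZMod.val_add, ← pow_eq_pow_mod _ hR]

theorem pow_sub_val {R : Q} (hR : R ^ 4 = 1) (i j : ZMod 4) :
    R ^ (j - i).val = (R ^ i.val)⁻¹ * R ^ j.val := by
  rw [eq_inv_mul_iff_mul_eq, ← pow_add_val hR, add_sub_cancel]

theorem pow_mul_left {A B : Q} (hA : A * A = 1) (hB : B * B = 1) (n : ℕ) :
    (A * B) ^ n * A = A * ((A * B) ^ n)⁻¹ := by
  have hA' : A⁻¹ = A := inv_eq_of_mul_eq_one_right hA
  have hB' : B⁻¹ = B := inv_eq_of_mul_eq_one_right hB
  induction n with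
  | zero => simp
  | succ n ih =>
    rw [pow_succ, mul_inv_rev, mul_inv_rev, hA', hB']
    have : (A * B) ^ n * (A * B) * A = (A * B) ^ n * A * (B * A) := by group
    rw [this, ih]
    have hc : Commute ((A * B) ^ n)⁻¹ (B * A) := by
      have h2 : B * A = (A * B)⁻¹ := by rw [mul_inv_rev, hA', hB']
      rw [h2]
      exact ((Commute.refl (A * B)).pow_left n).inv_inv
    rw [mul_assoc, hc.eq]

theorem dih_mul (hA : A * A = 1) (hB : B * B = 1) (hR : (A * B) ^ 4 = 1)
    (p q : DihedralGroup 4) : dih A B (p * q) = dih A B p * dih A B q := by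
  rcases p with i | i <;> rcases q with j | j
  · simp only [DihedralGroup.r_mul_r, dih]
    exact pow_add_val hR i j
  · simp only [DihedralGroup.r_mul_sr, dih]
    rw [pow_sub_val hR, ← mul_assoc ((A * B) ^ i.val) A, pow_mul_left hA hB, mul_assoc]
  · simp only [DihedralGroup.sr_mul_r, dih]
    rw [pow_add_val hR, mul_assoc]
  · simp only [DihedralGroup.sr_mul_sr, dih]
    rw [pow_sub_val hR, mul_assoc A ((A * B) ^ i.val), ← mul_assoc ((A * B) ^ i.val) A,
      pow_mul_left hA hB, mul_assoc A, ← mul_assoc A A, hA, one_mul]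

theorem dih_one : dih A B 1 = 1 := by
  rw [DihedralGroup.one_def]
  simp [dih]

theorem commute_dih {X : Q} (h1 : Commute A X) (h2 : Commute B X) (p : DihedralGroup 4) :
    Commute (dih A B p) X := by
  rcases p with i | i
  · exact (h1.mul_left h2).pow_left _
  · exact h1.mul_left ((h1.mul_left h2).pow_left _)

namespace Rels

variable (h : Rels A B W)
include h

theorem W_conj_mul (X Y : Q) : W * (X * Y) * W = (W * X * W) * (W * Y * W) := by
  calc W * (X * Y) * W = W * X * (1 * Y) * W := by group
    _ = W * X * (W * W * Y) * W := by rw [h.hW]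
    _ = _ := by group

theorem W_conj_conj (X : Q) : W * (W * X * W) * W = X := by
  calc W * (W * X * W) * W = (W * W) * X * (W * W) := by group
    _ = X := by rw [h.hW]; group

theorem hBA : Commute B (W * A * W) := by
  have h1 : Commute (W * A * W) B := by
    have h2 : W * A * W * (W * (W * B * W) * W) = (W * (W * B * W) * W) * (W * A * W) := by
      rw [← h.W_conj_mul, ← h.W_conj_mul, h.hABw.eq]
    rwa [h.W_conj_conj] at h2
  exact h1.symm

theorem commute_factors (p q : DihedralGroup 4) :
    Commute (dih A B p) (W * dih A B q * W) := by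
  refine commute_dih ?_ ?_ p
  · have h1 : Commute (dih A B q) (W * A * W) := commute_dih h.hAA h.hBA q
    have h2 : W * dih A B q * W * (W * (W * A * W) * W) =
        (W * (W * A * W) * W) * (W * dih A B q * W) := by
      rw [← h.W_conj_mul, ← h.W_conj_mul, h1.eq]
    rw [h.W_conj_conj] at h2
    exact h2.symm
  · have h1 : Commute (dih A B q) (W * B * W) := commute_dih h.hABw h.hBB q
    have h2 : W * dih A B q * W * (W * (W * B * W) * W) =
        (W * (W * B * W) * W) * (W * dih A B q * W) := by
      rw [← h.W_conj_mul, ← h.W_conj_mul, h1.eq]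
    rw [h.W_conj_conj] at h2
    exact h2.symm

/-- The universal property of the model. -/
def hom : M →* Q :=
  MonoidHom.mk' (fun p => dih A B p.x * (W * dih A B p.y * W) * (bif p.e then W else 1)) (by
    rintro ⟨x, y, s⟩ ⟨u, v, t⟩
    have hm := dih_mul h.hA h.hB h.hAB
    cases s with
    | false =>
      simp only [mul_eq, cond_false, Bool.false_xor, mul_one]
      rw [hm, hm, h.W_conj_mul]
      have hc := (h.commute_factors u y).symm
      calc dih A B x * dih A B u * (W * dih A B y * W * (W * dih A B v * W)) * (bif t then W else 1)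
          = dih A B x * (dih A B u * (W * dih A B y * W)) * (W * dih A B v * W) *
              (bif t then W else 1) := by group
        _ = dih A B x * ((W * dih A B y * W) * dih A B u) * (W * dih A B v * W) *
              (bif t then W else 1) := by rw [hc.eq]
        _ = _ := by group
    | true =>
      simp only [mul_eq, cond_true, Bool.true_xor]
      rw [hm, hm, h.W_conj_mul]
      have hsw : W * (W * dih A B v * W) = dih A B v * W := by
        calc W * (W * dih A B v * W) = (W * W) * dih A B v * W := by group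
          _ = _ := by rw [h.hW, one_mul]
      have hWt : (bif (!t) then W else 1) = W * (bif t then W else 1) := by
        cases t <;> simp [h.hW]
      have hc := (h.commute_factors v (y * u))
      rw [hm, h.W_conj_mul] at hc
      rw [hWt]
      calc dih A B x * dih A B v * (W * dih A B y * W * (W * dih A B u * W)) *
            (W * (bif t then W else 1))
          = dih A B x * (dih A B v * (W * dih A B y * W * (W * dih A B u * W))) *
            (W * (bif t then W else 1)) := by group
        _ = dih A B x * ((W * dih A B y * W * (W * dih A B u * W)) * dih A B v) *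
            (W * (bif t then W else 1)) := by rw [hc.eq]
        _ = dih A B x * (W * dih A B y * W) * (W * dih A B u * (W * (dih A B v * W))) *
            (bif t then W else 1) := by group
        _ = dih A B x * (W * dih A B y * W) * (W * dih A B u * (W * (W * (W * dih A B v * W)))) *
            (bif t then W else 1) := by rw [hsw]
        _ = dih A B x * (W * dih A B y * W) * (W * dih A B u * (W * W) * (W * dih A B v * W)) *
            (bif t then W else 1) := by group
        _ = _ := by rw [h.hW, mul_one]; group)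

theorem hom_apply (p : M) :
    h.hom p = dih A B p.x * (W * dih A B p.y * W) * (bif p.e then W else 1) := rfl

theorem hom_gA : h.hom gA = A := by
  show dih A B (.sr 0) * (W * dih A B 1 * W) * 1 = A
  rw [dih_one]
  simp [dih, h.hW]

theorem hom_gB : h.hom gB = B := by
  show dih A B (.sr 1) * (W * dih A B 1 * W) * 1 = B
  rw [dih_one]
  have h1 : (1 : ZMod 4).val = 1 := rfl
  simp [dih, h.hW, h1, ← mul_assoc, h.hA]

theorem hom_gW : h.hom gW = W := by
  show dih A B 1 * (W * dih A B 1 * W) * W = W
  rw [dih_one]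
  simp [h.hW]

end Rels

end Lift

theorem rels_gen : Rels gA gB gW := by
  constructor <;> (first | decide +kernel | (show _ = _; decide +kernel))

theorem hom_gen : ∀ p : M, rels_gen.hom p = p := by
  simp only [Rels.hom_apply]
  decide +kernel

theorem closure_gen : Subgroup.closure ({gA, gB, gW} : Set M) = ⊤ := by
  refine eq_top_iff.mpr fun p _ => ?_
  rw [← hom_gen p, Rels.hom_apply]
  have hA : gA ∈ Subgroup.closure ({gA, gB, gW} : Set M) := Subgroup.subset_closure (by simp)
  have hB : gB ∈ Subgroup.closure ({gA, gB, gW} : Set M) := Subgroup.subset_closure (by simp)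
  have hW : gW ∈ Subgroup.closure ({gA, gB, gW} : Set M) := Subgroup.subset_closure (by simp)
  have hd : ∀ d, dih gA gB d ∈ Subgroup.closure ({gA, gB, gW} : Set M) := by
    rintro (i | i)
    · exact Subgroup.pow_mem _ (mul_mem hA hB) _
    · exact mul_mem hA (Subgroup.pow_mem _ (mul_mem hA hB) _)
  refine mul_mem (mul_mem (hd _) (mul_mem (mul_mem hW (hd _)) hW)) ?_
  cases p.e
  · exact one_mem _
  · exact hW

theorem hom_ext {Q : Type*} [Group Q] {f g : M →* Q}
    (hA : f gA = g gA) (hB : f gB = g gB) (hW : f gW = g gW) : f = g := by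
  refine MonoidHom.eq_of_eqOn_dense closure_gen ?_
  intro x hx
  rcases hx with rfl | rfl | rfl
  exacts [hA, hB, hW]

/-- `D₈` acting on `ZMod 4` -/
def dperm : DihedralGroup 4 → Equiv.Perm (ZMod 4)
  | .r i => Equiv.addRight i
  | .sr i => (Equiv.neg (ZMod 4)).trans (Equiv.addRight (-i))

/-- The embedding of the model into the symmetric group of degree 8. -/
def toPermFun (p : M) : Equiv.Perm (Bool × ZMod 4) :=
  (⟨fun q => (q.1, bif q.1 then dperm p.y q.2 else dperm p.x q.2),
    fun q => (q.1, bif q.1 then (dperm p.y).symm q.2 else (dperm p.x).symm q.2),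
    fun q => by rcases q with ⟨i, u⟩; cases i <;> simp,
    fun q => by rcases q with ⟨i, u⟩; cases i <;> simp⟩ : Equiv.Perm (Bool × ZMod 4)) *
  (⟨fun q => (xor q.1 p.e, q.2), fun q => (xor q.1 p.e, q.2),
    fun q => by simp [Bool.xor_assoc],
    fun q => by simp [Bool.xor_assoc]⟩ : Equiv.Perm (Bool × ZMod 4))

theorem dperm_mul : ∀ (a b : DihedralGroup 4) (u : ZMod 4),
    dperm (a * b) u = dperm a (dperm b u) := by decide +kernel

/-- `M` as a permutation group. -/
def toPerm : M →* Equiv.Perm (Bool × ZMod 4) :=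
  MonoidHom.mk' toPermFun (by
    rintro ⟨x, y, s⟩ ⟨u, v, t⟩
    refine Equiv.ext fun q => ?_
    rcases q with ⟨i, w⟩
    cases s <;> cases t <;> cases i <;>
      simp [toPermFun, mul_eq, Equiv.Perm.mul_apply, dperm_mul])

theorem toPerm_injective : Function.Injective toPerm := by
  refine (injective_iff_map_eq_one toPerm).mpr ?_
  have h : ∀ p : M, (∀ q, toPermFun p q = q) → p = 1 := by decide +kernel
  intro p hp
  exact h p fun q => congrArg (fun f : Equiv.Perm _ => f q) hp

/-- Every group isomorphic to a Sylow 2-subgroup of `S₈` is a copy of `M`. -/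
theorem nonempty_equiv_sylow (T : Sylow 2 (Equiv.Perm (Fin 8))) :
    Nonempty (M ≃* ↥(T : Subgroup (Equiv.Perm (Fin 8)))) := by
  have e8 : Bool × ZMod 4 ≃ Fin 8 := Fintype.equivFinOfCardEq (by simp)
  let f : M →* Equiv.Perm (Fin 8) := e8.permCongrHom.toMonoidHom.comp toPerm
  have hf : Function.Injective f := e8.permCongrHom.injective.comp toPerm_injective
  have e := MonoidHom.ofInjective hf
  have hc : Nat.card ↥f.range = 2 ^ 7 := by
    rw [← Nat.card_congr e.toEquiv, natCard_M]; norm_num
  have h2 : IsPGroup 2 ↥f.range := IsPGroup.of_card hc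
  have hi : ¬ 2 ∣ f.range.index := by
    have hp : Nat.card (Equiv.Perm (Fin 8)) = 40320 := by
      rw [Nat.card_eq_fintype_card, Fintype.card_perm, Fintype.card_fin]
      decide
    have := f.range.card_mul_index
    rw [hc, hp] at this
    omega
  exact ⟨e.trans ((h2.toSylow hi).equiv T)⟩

end CfsgLib.DihedralWreath
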