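import Cfsg.Prelude.Def_Transfer
import Cfsg.Agent.Eq.Def_Transfer
import Cfsg.Agent.DihedralWreath.Embedded

/-!
The centre and normaliser of a proper subgroup `D₈ ≀ C₂` of a 2-group of sectional rank at most
four.
-/

set_option autoImplicit false

namespace CfsgLib.DihedralWreath

section

theorem center_le_normalizer_range {S : Type*} [Group S] [Finite S] (ι : M →* S) :
    Subgroup.center S ≤ Subgroup.normalizer ((ι.range : Subgroup S) : Set S) := by
  intro z hz
  rw [normalizes_iff]
  intro m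
  rw [← Subgroup.mem_center_iff.mp hz (ι m), mul_inv_cancel_right]
  exact ⟨m, rfl⟩

variable {S : Type*} [Group S] [Finite S] {ι : M →* S} (hι : Function.Injective ι)
  (hS : IsPGroup 2 S) (hr : Cfsg.SectionalPRankLE 2 4 S)
include hι hS hr

theorem center_eq :
    Subgroup.center S = (Subgroup.center ↥ι.range).map ι.range.subtype ∧
      Nat.card ↥(Subgroup.center S) = 2 ∧ ∀ z, z ∈ Subgroup.center S ↔ z = 1 ∨ z = ι cz := by
  have hsub : ∀ z ∈ Subgroup.center S, z = 1 ∨ z = ι cz := by
    intro z hz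
    rw [Subgroup.mem_center_iff] at hz
    obtain ⟨m, rfl⟩ := centralizer_le ι hι hS hr (y := z) fun m => (hz _).symm
    rcases center_mem m (fun g => hι (by rw [map_mul, map_mul]; exact hz _)) with rfl | rfl
    · exact .inl (map_one ι)
    · exact .inr rfl
  haveI : Nontrivial S := ⟨⟨ι cz, 1, fun h => cz_ne_one (hι (by rw [h, map_one]))⟩⟩
  haveI := hS.center_nontrivial
  obtain ⟨⟨z, hz⟩, hz1⟩ := exists_ne (1 : Subgroup.center S)
  have hzc : ι cz ∈ Subgroup.center S := by
    rcases hsub z hz with rfl | rfl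
    · exact absurd rfl hz1
    · exact hz
  have hiff : ∀ z, z ∈ Subgroup.center S ↔ z = 1 ∨ z = ι cz := fun z =>
    ⟨hsub z, by rintro (rfl | rfl); exacts [one_mem _, hzc]⟩
  refine ⟨?_, ?_, hiff⟩
  · ext z
    rw [hiff, Subgroup.mem_map]
    constructor
    · intro hz
      refine ⟨⟨z, ?_⟩, ?_, rfl⟩
      · rcases hz with rfl | rfl
        exacts [one_mem _, ⟨cz, rfl⟩]
      · rw [Subgroup.mem_center_iff]
        intro g
        exact Subtype.ext (Subgroup.mem_center_iff.mp ((hiff z).mpr hz) g.1)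
    · rintro ⟨⟨_, m, rfl⟩, hm, rfl⟩
      rw [Subgroup.mem_center_iff] at hm
      rcases center_mem m (fun g => hι (by
        rw [map_mul, map_mul]; exact congrArg Subtype.val (hm ⟨ι g, g, rfl⟩))) with rfl | rfl
      · exact .inl (map_one ι)
      · exact .inr rfl
  · show Nat.card ((Subgroup.center S : Set S)) = 2
    have h : ((Subgroup.center S : Set S)) = {1, ι cz} := by
      ext z; simpa using hiff z
    rw [h, Nat.card_coe_set_eq, Set.ncard_pair]
    exact fun e => cz_ne_one (hι (by rw [← e, map_one]))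

theorem exists_swap_aut {y : S} (hy : Normalizes ι y) (hn : y ∉ ι.range) :
    ∃ φ : M →* M, Function.Injective φ ∧ (∀ m, ι (φ m) = y * ι m * y⁻¹) ∧
      (∀ v, InVa v → InVb (φ v)) ∧ ∀ v, InVb v → InVa (φ v) := by
  obtain ⟨φ, hφi, hφ⟩ := exists_aut ι hι hy
  rcases map_fix_or_swap hφi with h | h
  · exact absurd (fix_va_mem ι hι hS hr hy fun v hv => ⟨φ v, h.1 v hv, hφ v⟩) hn
  · exact ⟨φ, hφi, hφ, h.1, h.2⟩

theorem mul_mem_range {y z : S} (hy : Normalizes ι y) (hz : Normalizes ι z) (hyn : y ∉ ι.range)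
    (hzn : z ∉ ι.range) : y * z ∈ ι.range := by
  obtain ⟨φ, -, hφ, -, hb⟩ := exists_swap_aut hι hS hr hy hyn
  obtain ⟨χ, -, hχ, ha, -⟩ := exists_swap_aut hι hS hr hz hzn
  refine fix_va_mem ι hι hS hr (normalizes_mul ι hy hz) fun v hv => ⟨φ (χ v), hb _ (ha v hv), ?_⟩
  rw [hφ, hχ]
  group

theorem exists_normalizes_not_mem (hP : ι.range ≠ ⊤) :
    ∃ y, Normalizes ι y ∧ y ∉ ι.range := by
  haveI := Fact.mk Nat.prime_two
  haveI := hS.isNilpotent
  have h := normalizerCondition_of_isNilpotent ι.range (lt_top_iff_ne_top.mpr hP)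
  obtain ⟨y, hy, hn⟩ := SetLike.exists_of_lt h
  exact ⟨y, (normalizes_iff ι y).mp hy, hn⟩

theorem relIndex_eq_two (hP : ι.range ≠ ⊤) :
    ι.range.relIndex (Subgroup.normalizer ((ι.range : Subgroup S) : Set S)) = 2 := by
  obtain ⟨y, hy, hn⟩ := exists_normalizes_not_mem hι hS hr hP
  rw [Subgroup.relIndex_eq_two_iff]
  refine ⟨y, (normalizes_iff ι y).mpr hy, fun b hb => ?_⟩
  rw [normalizes_iff] at hb
  by_cases hbP : b ∈ ι.range
  · exact .inr ⟨hbP, fun h => hn (by simpa using mul_mem (inv_mem hbP) h)⟩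
  · exact .inl ⟨mul_mem_range hι hS hr hb hy hbP hn, hbP⟩

theorem normalizer_va_le (V : Subgroup S) (hV : V ≤ ι.range)
    (hVn : ∀ g ∈ ι.range, ∀ v ∈ V, g * v * g⁻¹ ∈ V)
    (hVe : Cfsg.IsElementaryAbelian 2 V) (hVc : Nat.card ↥V = 16) :
    Subgroup.normalizer (V : Set S) = ι.range := by
  classical
  let W := V.comap ι
  have hgood : ∀ m ∈ W, InVa m ∨ InVb m := by
    intro m hm
    rw [← isGood_iff]
    refine ⟨hι ?_, fun g => hι ?_⟩
    · rw [map_mul, ← pow_two, hVe.2 _ hm, map_one]
    · simp only [map_mul, map_inv]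
      exact congrArg Subtype.val (hVe.1.is_comm.comm (⟨_, hm⟩ : V)
        ⟨_, hVn _ ⟨g, rfl⟩ _ hm⟩)
  have hWc : ({m | m ∈ W} : Set M).ncard = 16 := by
    have himg : ι '' {m | m ∈ W} = (V : Set S) := by
      ext x
      refine ⟨by rintro ⟨m, hm, rfl⟩; exact hm, fun hx => ?_⟩
      obtain ⟨m, rfl⟩ := hV hx
      exact ⟨m, hx, rfl⟩
    rw [← Set.ncard_image_of_injective _ hι, himg, ← Nat.card_coe_set_eq]
    exact hVc
  have hW : {m | m ∈ W} = {m : M | InVa m} ∨ {m | m ∈ W} = {m : M | InVb m} := by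
    have hsub : {m | m ∈ W} ⊆ {m : M | InVa m} ∨ {m | m ∈ W} ⊆ {m : M | InVb m} := by
      by_contra hc
      rw [not_or, Set.not_subset, Set.not_subset] at hc
      obtain ⟨⟨v, hv, hv'⟩, u, hu, hu'⟩ := hc
      have h1 := (hgood v hv).resolve_left hv'
      have h2 := (hgood u hu).resolve_right hu'
      rcases hgood (v * u⁻¹) (mul_mem hv (inv_mem hu)) with h3 | h3
      · exact hv' (va_right _ _ h2 h3)
      · exact hu' (vb_right _ _ h1 h3)
    refine hsub.imp (fun h => ?_) (fun h => ?_) <;>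
    · refine Set.eq_of_subset_of_ncard_le h ?_
      rw [hWc, ← Nat.card_coe_set_eq]
      show Nat.card {m : M // _} ≤ 16
      rw [Nat.card_eq_fintype_card]
      decide +kernel
  have hPle : ι.range ≤ Subgroup.normalizer (V : Set S) := by
    rw [Subgroup.le_normalizer_iff]
    exact hVn
  refine le_antisymm ?_ hPle
  by_contra hc
  haveI := Fact.mk Nat.prime_two
  let R := Subgroup.normalizer (V : Set S)
  haveI : Group.IsNilpotent R := (hS.to_subgroup R).isNilpotent
  have hlt : ι.range.subgroupOf R < ⊤ := by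
    rw [lt_top_iff_ne_top]
    exact fun h => hc (Subgroup.subgroupOf_eq_top.mp h)
  obtain ⟨⟨y, hyR⟩, hy, hyn⟩ := SetLike.exists_of_lt
    (normalizerCondition_of_isNilpotent (ι.range.subgroupOf R) hlt)
  rw [Subgroup.mem_subgroupOf] at hyn
  have hyN : Normalizes ι y := fun m => by
    rw [Subgroup.mem_normalizer_iff_map_conj_eq] at hy
    have hmem : MulAut.conj (⟨y, hyR⟩ : R) ⟨ι m, hPle ⟨m, rfl⟩⟩ ∈ ι.range.subgroupOf R :=
      hy.le ⟨⟨ι m, hPle ⟨m, rfl⟩⟩, ⟨m, rfl⟩, rfl⟩
    exact hmem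
  obtain ⟨φ, hφi, hφ, ha, hb⟩ := exists_swap_aut hι hS hr hyN hyn
  have hfix : ∀ m ∈ W, φ m ∈ W := by
    intro m hm
    show ι (φ m) ∈ V
    rw [hφ]
    have := Subgroup.mem_normalizer_iff_map_conj_eq.mp hyR
    exact this.le ⟨ι m, hm, rfl⟩
  rcases hW with h | h
  · have h1 : φ gA ∈ {m | m ∈ W} := hfix gA (h.symm.subset gA_va)
    have hall : ∀ v, InVa v → InVa (φ v) := fun v hv => h.subset (hfix v (h.symm.subset hv))
    exact hyn (fix_va_mem ι hι hS hr hyN fun v hv => ⟨φ v, hall v hv, hφ v⟩)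
  · have hall : ∀ v, InVb v → InVb (φ v) := fun v hv => h.subset (hfix v (h.symm.subset hv))
    obtain ⟨w, hw⟩ := map_surjective hφi gA
    have hg : IsGood (φ w) := (isGood_iff _).mpr (.inl (hw ▸ gA_va))
    have hgw : IsGood w := ⟨hφi (by rw [map_mul, hg.1, map_one]),
      fun g => hφi (by simp only [map_mul, map_inv]; exact hg.2 _)⟩
    rcases (isGood_iff w).mp hgw with hw' | hw'
    · exact gA_not_vb (hw ▸ ha w hw')
    · exact gA_not_vb (hw ▸ hall w hw')

theorem nonempty_quotient_equiv (hP : ι.range ≠ ⊤) :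
    ∃ _ : ((Subgroup.center S).subgroupOf
        (Subgroup.normalizer ((ι.range : Subgroup S) : Set S))).Normal,
      Nonempty (↥(Subgroup.normalizer ((ι.range : Subgroup S) : Set S)) ⧸
        (Subgroup.center S).subgroupOf
          (Subgroup.normalizer ((ι.range : Subgroup S) : Set S)) ≃* M) := by
  obtain ⟨-, hZcard, hZ⟩ := center_eq hι hS hr
  obtain ⟨y0, hy0, hy0n⟩ := exists_normalizes_not_mem hι hS hr hP
  obtain ⟨φ, hφi, hφ, ha, hb⟩ := exists_swap_aut hι hS hr hy0 hy0n
  have hcomp : Function.Injective (φ.comp (psi false false)) := by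
    refine hφi.comp ?_
    have : ∀ a b, psi false false a = psi false false b → a = b := by
      intro a b h
      have h2 : ∀ m, psi false false (psi false false m) = m := fun m =>
        DFunLike.congr_fun (hom_ext (f := (psi false false).comp (psi false false))
          (g := MonoidHom.id M)
          (by simp [psi_gA, psi_gB, tw]) (by simp [psi_gA, psi_gB, tw]) (by simp [psi_gW])) m
      rw [← h2 a, h, h2]
    exact this
  obtain ⟨g, s, t, h1, h2, h3⟩ := classify hcomp (fun v hv => hb _ (psi_va v hv))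
    (fun v hv => ha _ (psi_vb v hv))
  simp only [MonoidHom.coe_comp, Function.comp_apply, psi_gA, psi_gB, psi_gW, tw, cond_false]
    at h1 h2 h3
  let y := (ι g)⁻¹ * y0
  have hyN : Normalizes ι y :=
    normalizes_mul ι (normalizes_range ι (inv_mem ⟨g, rfl⟩)) hy0
  have hyn : y ∉ ι.range := fun h => hy0n (by
    simpa [y] using mul_mem (⟨g, rfl⟩ : ι g ∈ ι.range) h)
  have hact : ∀ m, y * ι m * y⁻¹ = ι (psi s t m) := by
    refine act_of_gen ι ?_ ?_ ?_
    · rw [psi_gA]
      calc y * ι gA * y⁻¹ = (ι g)⁻¹ * (y0 * ι gA * y0⁻¹) * ι g := by simp only [y]; group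
        _ = _ := by rw [← hφ, h2, map_mul, map_mul, map_inv]; group; rfl
    · rw [psi_gB]
      calc y * ι gB * y⁻¹ = (ι g)⁻¹ * (y0 * ι gB * y0⁻¹) * ι g := by simp only [y]; group
        _ = _ := by rw [← hφ, h1, map_mul, map_mul, map_inv]; group; rfl
    · rw [psi_gW]
      calc y * ι gW * y⁻¹ = (ι g)⁻¹ * (y0 * ι gW * y0⁻¹) * ι g := by simp only [y]; group
        _ = _ := by rw [← hφ, h3, map_mul, map_mul, map_inv]; group
  obtain ⟨c, hc⟩ := mul_mem_range hι hS hr hyN hyN hyn hyn
  have hcc : ∀ m, c * m * c⁻¹ = psi s t (psi s t m) := by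
    intro m
    apply hι
    rw [← hact, ← hact, map_mul, map_mul, map_inv, hc]
    group
  obtain ⟨rfl, hc1⟩ := psi_fixed s t c (hcc _) (hcc _) (hcc _)
  have hy2 : y * y ∈ Subgroup.center S := by
    rw [hZ, ← hc]
    rcases hc1 with rfl | rfl
    · exact .inl (map_one ι)
    · exact .inr rfl
  haveI hnorm : ((Subgroup.center S).subgroupOf
      (Subgroup.normalizer ((ι.range : Subgroup S) : Set S))).Normal := Subgroup.Normal.subgroupOf
    inferInstance _
  refine ⟨hnorm, ?_⟩
  let R := Subgroup.normalizer ((ι.range : Subgroup S) : Set S)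
  let Z := (Subgroup.center S).subgroupOf R
  let q : R →* R ⧸ Z := QuotientGroup.mk' Z
  have hle : ι.range ≤ R := Subgroup.le_normalizer
  let iN : M →* R := ι.codRestrict R fun m => hle ⟨m, rfl⟩
  let yN : R := ⟨y, (normalizes_iff ι y).mpr hyN⟩
  let f : M × Bool → R ⧸ Z := fun p => q (iN p.1 * (bif p.2 then yN else 1))
  have hcz : q (iN cz) = 1 :=
    (QuotientGroup.eq_one_iff _).mpr ((hZ _).mpr (.inr rfl))
  have hyy : q (yN * yN) = 1 := (QuotientGroup.eq_one_iff _).mpr hy2
  have hmv : ∀ m, yN * iN m = iN (psi s s m) * yN := fun m => Subtype.ext (by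
    show y * ι m = ι (psi s s m) * y
    rw [← hact]; group)
  have hfmul : ∀ p p', f (mulT s p p') = f p * f p' := by
    rintro ⟨p, i⟩ ⟨p', j⟩
    cases i with
    | false => simp [f, mulT, mul_assoc]
    | true =>
      cases j with
      | false =>
        simp only [f, mulT, cond_true, cond_false, Bool.xor_false, mul_one]
        rw [← map_mul q, map_mul iN, mul_assoc, ← hmv, mul_assoc]
      | true =>
        simp only [f, mulT, cond_true, cond_false, Bool.xor_self, mul_one]
        rw [← map_mul q]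
        have h4 : iN p * yN * (iN p' * yN) = iN (p * psi s s p') * (yN * yN) := by
          calc iN p * yN * (iN p' * yN) = iN p * (yN * iN p') * yN := by group
            _ = _ := by rw [hmv, map_mul]; group
        rw [h4, map_mul q, hyy, mul_one]
  have hf1 : f (1, false) = 1 := by simp [f]
  have hfz : ∀ p p', EqZ p p' → f p = f p' := by
    rintro ⟨p, i⟩ ⟨p', j⟩ ⟨hij, hpp⟩
    simp only at hij
    subst hij
    rcases hpp with h | h
    · simp only at h; subst h; rfl
    · simp only at h; subst h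
      simp only [f, map_mul, hcz, mul_one]
  have hlist : ∀ l : List (M × Bool), f (prodT s l) = (l.map f).prod := by
    intro l
    induction l with
    | nil => exact hf1
    | cons a l ih => rw [List.map_cons, List.prod_cons, ← ih]; exact hfmul _ _
  have hrel : ∀ l l' : List (M × Bool), EqZ (prodT s l) (prodT s l') →
      (l.map f).prod = (l'.map f).prod := fun l l' h => by
    rw [← hlist, ← hlist]; exact hfz _ _ h
  obtain ⟨r1, r2, r3, r4, r5, r6, r7⟩ := twisted_rels s
  have e1 := hrel _ _ r1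
  have e2 := hrel _ _ r2
  have e3 := hrel _ _ r3
  have e4 := hrel _ _ r4
  have e5 := hrel _ _ r5
  have e6 := hrel _ _ r6
  have e7 := hrel _ _ r7
  simp only [List.map_cons, List.map_nil, List.prod_cons, List.prod_nil, mul_one]
    at e1 e2 e3 e4 e5 e6 e7
  have hR : Rels (f genA) (f genB) (f genW) := by
    refine ⟨e1, e2, e3, ?_, ?_, ?_, ?_⟩
    · calc (f genA * f genB) ^ 4 = f genA * (f genB * (f genA * (f genB *
            (f genA * (f genB * (f genA * f genB)))))) := by
            simp only [pow_succ, pow_zero, one_mul, mul_assoc]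
        _ = 1 := e4
    · show _ = _
      simpa only [mul_assoc] using e5
    · show _ = _
      simpa only [mul_assoc] using e6
    · show _ = _
      simpa only [mul_assoc] using e7
  have hmem : ∀ l : List (M × Bool), (∀ x ∈ l, x = genA ∨ x = genB ∨ x = genW) →
      ∀ p, EqZ (prodT s l) p → f p ∈ hR.hom.range := by
    intro l hl p hp
    rw [← hfz _ _ hp, hlist]
    refine Subgroup.list_prod_mem _ ?_
    intro x hx
    obtain ⟨w, hw, rfl⟩ := List.mem_map.mp hx
    rcases hl w hw with rfl | rfl | rfl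
    exacts [⟨gA, hR.hom_gA⟩, ⟨gB, hR.hom_gB⟩, ⟨gW, hR.hom_gW⟩]
  have hgens : f (gA, false) ∈ hR.hom.range ∧ f (gB, false) ∈ hR.hom.range ∧
      f (gW, false) ∈ hR.hom.range ∧ f (1, true) ∈ hR.hom.range := by
    cases s
    · obtain ⟨a, b, w, u⟩ := twisted_gen_false
      exact ⟨hmem _ (by simp) _ a, hmem _ (by simp) _ b, hmem _ (by simp) _ w,
        hmem _ (by simp) _ u⟩
    · obtain ⟨a, b, w, u⟩ := twisted_gen_true
      exact ⟨hmem _ (by simp) _ a, hmem _ (by simp) _ b, hmem _ (by simp) _ w,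
        hmem _ (by simp) _ u⟩
  simp only [f, cond_false, cond_true, mul_one, map_one, one_mul] at hgens
  have hall : (q.comp iN).range ≤ hR.hom.range := by
    rw [MonoidHom.range_eq_map, ← closure_gen, MonoidHom.map_closure,
      Subgroup.closure_le]
    rintro _ ⟨x, hx, rfl⟩
    rcases hx with rfl | rfl | rfl
    exacts [hgens.1, hgens.2.1, hgens.2.2.1]
  have hsurj : Function.Surjective hR.hom := by
    intro x
    obtain ⟨⟨z, hz⟩, rfl⟩ := QuotientGroup.mk'_surjective Z x
    by_cases hzP : z ∈ ι.range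
    · obtain ⟨m, hm⟩ := hzP
      refine hall ⟨m, congrArg q (Subtype.ext ?_)⟩
      exact hm
    · obtain ⟨m, hm⟩ := mul_mem_range hι hS hr ((normalizes_iff ι z).mp hz) hyN hzP hyn
      have h5 : (⟨z, hz⟩ : R) = iN m * yN⁻¹ := Subtype.ext (by
        show z = ι m * y⁻¹
        rw [hm, mul_inv_cancel_right])
      rw [h5, map_mul, map_inv]
      exact mul_mem (hall ⟨m, rfl⟩) (inv_mem hgens.2.2.2)
  have hcard : Nat.card M ≤ Nat.card (R ⧸ Z) := by
    have h6 := Subgroup.card_eq_card_quotient_mul_card_subgroup Z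
    have h7 : Nat.card Z = 2 := by
      rw [Nat.card_congr (Subgroup.subgroupOfEquivOfLe (center_le_normalizer_range ι)).toEquiv]
      exact hZcard
    have h8 := (ι.range.subgroupOf R).card_mul_index
    rw [Nat.card_congr (Subgroup.subgroupOfEquivOfLe hle).toEquiv,
      ← Nat.card_congr (MonoidHom.ofInjective hι).toEquiv, natCard_M,
      show (ι.range.subgroupOf R).index = 2 from relIndex_eq_two hι hS hr hP] at h8
    rw [natCard_M]
    rw [h7, ← h8] at h6
    omega
  exact ⟨(MulEquiv.ofBijective hR.hom (hsurj.bijective_of_nat_card_le hcard)).symm⟩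

end

end CfsgLib.DihedralWreath
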